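import Mathlib
import Cfsg.Agent.CpAut.RgdConj

/-!
# Fixed points of a diagonal automorphism (of any order) on the groups `Sup X (PW w)` (helper202)

The proof is that of `Cfsg.Agent.CpAut.RgdFix.fix_PW`, the automorphism is moved by the simple reflections.
-/

set_option autoImplicit false
set_option linter.unusedSectionVars false

namespace Cfsg.Agent.H202.TD

open CoxeterSystem Cfsg.Agent.ChevalleyStructure.CoxeterGeom Cfsg.Agent.Tits.Roots Cfsg.Agent.Tits.Core
  Cfsg.Agent.Tits.Exchange Cfsg.Agent.Nodes.Reps Cfsg.Agent.Nodes.BNOf Cfsg.Agent.Nodes.StabComb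
  Cfsg.Agent.Nodes.Bruhat Cfsg.Agent.Nodes.OppDec Cfsg.Agent.Nodes.LeviDec Cfsg.Agent.Nodes.NormalForm
  Cfsg.Agent.KFacts.RgdOpp Cfsg.Agent.KFacts.RgdAut Cfsg.Agent.KFacts.RgdDiag Cfsg.Agent.KFacts.RgdRigid
  Cfsg.Agent.KFacts.RgdField Cfsg.Agent.CpAut.RgdFix

variable {I W Y : Type*} [Fintype I] [DecidableEq I] [Group W] [Group Y] {M : CoxeterMatrix I}
  {cs : CoxeterSystem M W} {A : I → I → ℤ} {h : IsCartan M A} {p : ℕ} {T : Subgroup Y} {n : I → Y}
  {X : (I → ℤ) → Subgroup Y} (R : RGD cs h p T n X)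

include R

theorem mem_n_conj {i : I} {x : I → ℤ} (hx : IsRoot cs h x) (a : Y) :
    n i * a * (n i)⁻¹ ∈ X (rep cs h (cs.simple i) x) ↔ a ∈ X x := by
  rw [← R.conj i x hx]
  exact conj_mem_cj

theorem diag_conj_n [Finite W] {β : MulAut Y} (D : Diag T X β 1) (i : I) :
    Diag T X ((MulAut.conj (n i))⁻¹ * β * MulAut.conj (n i)) 1 := by
  have hT : ∀ a, n i * a * (n i)⁻¹ ∈ T ↔ a ∈ T := fun a =>
    ((Subgroup.mem_normalizer_iff.1 (R.nsys.norm i)) a).symm
  have key : ∀ x, IsRoot cs h x → ∀ a, ((MulAut.conj (n i))⁻¹ * β * MulAut.conj (n i)) a ∈ X x ↔ a ∈ X x := by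
    intro x hx a
    have e : n i * ((MulAut.conj (n i))⁻¹ * β * MulAut.conj (n i)) a * (n i)⁻¹ = β (n i * a * (n i)⁻¹) := by
      rw [← map_inv, MulAut.mul_apply, MulAut.mul_apply, MulAut.conj_apply, MulAut.conj_apply]
      group
    rw [← mem_n_conj R hx, e, fix_X R D (hx.act _), mem_n_conj R hx]
  refine ⟨?_, ?_, ?_⟩
  · intro a
    have e : n i * ((MulAut.conj (n i))⁻¹ * β * MulAut.conj (n i)) a * (n i)⁻¹ = β (n i * a * (n i)⁻¹) := by
      rw [← map_inv, MulAut.mul_apply, MulAut.mul_apply, MulAut.conj_apply, MulAut.conj_apply]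
      group
    rw [← hT, e, D.1, hT]
  · intro j a
    rw [Equiv.Perm.one_apply]
    exact key _ (isRoot_sr cs h j) a
  · intro j a
    rw [Equiv.Perm.one_apply]
    exact key _ (isRoot_sr cs h j).neg a

/-- fixed points on the groups `Sup X (PW w)` -/
theorem fix_PW' [Finite W] : ∀ (w : W) {β : MulAut Y}, Diag T X β 1 → ∀ {a : Y},
    a ∈ RGD.Sup X (PW cs h w) → β a = a → a ∈ RGD.Sup (XF X β) (PW cs h w) := by
  intro w
  induction hn : cs.length (w0 cs) - cs.length w using Nat.strong_induction_on generalizing w with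
  | _ N ih =>
  intro β D a ha hc
  by_cases hw0 : w = w0 cs
  · subst hw0
    rw [PW_w0, Sup_empty, Subgroup.mem_bot] at ha
    rw [ha]; exact one_mem _
  obtain ⟨i, hi⟩ : ∃ i, cs.length w < cs.length (w * cs.simple i) := by
    by_contra hcon
    push Not at hcon
    apply hw0
    have h1 : w * w0 cs = 1 := by
      refine eq_one_of_nonneg cs h _ fun j => ?_
      change 0 ≤ rep cs h (w * w0 cs) (sr j)
      rw [rep_mul_apply]
      have h3 : ∀ x, IsRoot cs h x → 0 ≤ x → rep cs h w x ≤ 0 := by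
        intro x hx h0
        have h4 : ∀ j, rep cs h w (sr j) ≤ 0 := fun j =>
          nonpos_of_lt cs h w j (lt_of_le_of_ne (hcon j) (cs.length_mul_simple_ne w j))
        have h5 : x = ∑ k, x k • sr k := by
          funext k
          rw [Finset.sum_apply, Finset.sum_eq_single k (fun b _ hb => by
            rw [Pi.smul_apply, sr_ne hb.symm, smul_zero]) (by simp), Pi.smul_apply, sr_self, smul_eq_mul,
            mul_one]
        rw [h5, map_sum]
        refine Finset.sum_nonpos fun k _ => ?_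
        rw [map_smul]
        exact smul_nonpos_of_nonneg_of_nonpos (h0 k) (h4 k)
      have h6 := h3 (-rep cs h (w0 cs) (sr j)) ((isRoot_sr cs h j).act _).neg
        (neg_nonneg.2 (rep_w0_nonpos (isRoot_sr cs h j) (sr_nonneg j)))
      rw [map_neg] at h6
      exact neg_nonpos.1 h6
    have h2 : w = (w0 cs)⁻¹ := eq_inv_of_mul_eq_one_left h1
    rw [h2, w0_inv]
  have hpos : 0 ≤ rep cs h w (sr i) := (lt_iff' cs h w i).1 hi
  obtain ⟨r, hr, u, hu, rfl⟩ := exists_mul_PW R hpos ha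
  have hβr : β r ∈ RGD.Sup X (PW cs h w \ {sr i}) := (fix_Sup (fun x hx => fix_X R D hx.1.1) r).2 hr
  have hβu : β u ∈ X (sr i) := (fix_X R D (isRoot_sr cs h i) u).2 hu
  have hmono : RGD.Sup X (PW cs h w \ {sr i}) ≤ RGD.Sup X (RGD.PosNe cs h i) :=
    RGD.Sup_mono fun x hx => ⟨hx.1.1, hx.1.2.1, hx.2⟩
  have h5 : u * (β u)⁻¹ = 1 := by
    refine eq_one_of_mem_PosNe R (mul_mem hu (inv_mem hβu)) ?_
    have h4 : u * (β u)⁻¹ = r⁻¹ * β r := by
      rw [map_mul] at hc
      rw [mul_inv_eq_iff_eq_mul, mul_assoc, hc]; group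
    rw [h4]
    exact hmono (mul_mem (inv_mem hr) hβr)
  have huf : β u = u := (mul_inv_eq_one.1 h5).symm
  have hrf : β r = r := by
    rw [map_mul, huf] at hc
    exact mul_right_cancel hc
  refine mul_mem ?_ (RGD.le_Sup (X := XF X β) (S := PW cs h w)
    ⟨isRoot_sr cs h i, sr_nonneg i, hpos⟩ (mem_XF.2 ⟨hu, huf⟩))
  set w' := w * cs.simple i with hw'
  have hlen : cs.length (w0 cs) - cs.length w' < N := by
    have h1 := length_le_w0 cs w'
    omega
  have hk := rp_simple cs R.nsys i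
  obtain ⟨β', hβ'⟩ : ∃ β', β' = (MulAut.conj (n i))⁻¹ * β * MulAut.conj (n i) := ⟨_, rfl⟩
  have D' : Diag T X β' 1 := hβ' ▸ diag_conj_n R D i
  have hβa : ∀ y, n i * β' y * (n i)⁻¹ = β (n i * y * (n i)⁻¹) := by
    intro y
    rw [hβ', ← map_inv, MulAut.mul_apply, MulAut.mul_apply, MulAut.conj_apply, MulAut.conj_apply]
    group
  have hws : ∀ x : I → ℤ, rep cs h w' (rep cs h (cs.simple i) x) = rep cs h w x := by
    intro x
    rw [← rep_mul_apply, hw', mul_assoc, simple_mul_simple_self, mul_one]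
  have h1 : (n i)⁻¹ * r * n i ∈ RGD.Sup X (PW cs h w') := by
    refine conj_mem_Sup' R hk (fun x hx => hx.1.1) (fun x hx => ?_) hr
    rw [inv_simple]
    exact ⟨hx.1.1.act _, hx.1.1.simple_nonneg hx.1.2.1 i hx.2, by rw [hws]; exact hx.1.2.2⟩
  have h3 := ih _ hlen w' rfl D' h1 (by
    have h4 := hβa ((n i)⁻¹ * r * n i)
    have e1 : n i * ((n i)⁻¹ * r * n i) * (n i)⁻¹ = r := by group
    rw [e1, hrf] at h4
    calc β' ((n i)⁻¹ * r * n i) = (n i)⁻¹ * (n i * β' ((n i)⁻¹ * r * n i) * (n i)⁻¹) * n i := by group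
      _ = (n i)⁻¹ * r * n i := by rw [h4])
  have h4 : cj (n i) (RGD.Sup (XF X β') (PW cs h w')) ≤ RGD.Sup (XF X β) (PW cs h w) := by
    rw [RGD.cj_Sup]
    refine iSup_le ?_
    rintro ⟨x, hx⟩
    have hx' : rep cs h (cs.simple i) x ∈ PW cs h w := by
      have hne : x ≠ sr i := by
        rintro rfl
        have h5 := hx.2.2
        rw [hw', rep_mul_apply, rep_simple_sr, map_neg] at h5
        exact ((isRoot_sr cs h i).act w).not_pos_neg hpos (neg_nonneg.1 h5)
      exact ⟨hx.1.act _, hx.1.simple_nonneg hx.2.1 i hne, by rw [← rep_mul_apply]; exact hx.2.2⟩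
    refine le_trans ?_ (RGD.le_Sup (X := XF X β) hx')
    intro y hy
    rw [mem_cj, mem_XF] at hy
    rw [mem_XF]
    have e1 : n i * ((n i)⁻¹ * y * n i) * (n i)⁻¹ = y := by group
    refine ⟨?_, ?_⟩
    · have h5 := R.conj_mem hk hx.1 hy.1
      rwa [e1] at h5
    · have h5 := hβa ((n i)⁻¹ * y * n i)
      rw [e1, hy.2, e1] at h5
      exact h5.symm
  have h5 := h4 (conj_mem_cj.2 h3)
  have e1 : n i * ((n i)⁻¹ * r * n i) * (n i)⁻¹ = r := by group
  rwa [e1] at h5

theorem fix_U' [Finite W] {β : MulAut Y} (D : Diag T X β 1) {a : Y} (ha : a ∈ RGD.Sup X (RGD.Pos cs h))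
    (hf : β a = a) : a ∈ RGD.Sup (XF X β) (RGD.Pos cs h) := by
  rw [← PW_one_eq] at ha ⊢
  exact fix_PW' R 1 D ha hf

end Cfsg.Agent.H202.TD
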