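import Cfsg.Agent.H202.TD.TorOne
import Cfsg.Agent.H202.TD.FixPW
import Cfsg.Agent.H884.NA.BaseNA
import Cfsg.Agent.H911.TD.KillII

/-!
# S3509, `³D₄(q)`, `q = 1 mod 3`: the centralizer of an outer automorphism of order three, second class (helper202)

`β = conj t * st q τ`, `Good3 t` : the fixed points are generated by those of the short root groups and of the torus.
-/

set_option autoImplicit false
set_option linter.unusedSectionVars false
set_option maxHeartbeats 400000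

namespace Cfsg.Agent.H202.TD

open CoxeterSystem Cfsg.Agent.ChevalleyStructure.CoxeterGeom Cfsg.Agent.Tits.Roots Cfsg.Agent.Tits.Core
  Cfsg.Agent.Tits.Exchange Cfsg.Agent.Nodes.Reps Cfsg.Agent.Nodes.BNOf Cfsg.Agent.Nodes.StabComb
  Cfsg.Agent.Nodes.Bruhat Cfsg.Agent.Nodes.OppDec Cfsg.Agent.Nodes.LeviDec Cfsg.Agent.Nodes.RGDTwGen
  Cfsg.Agent.Nodes.RGDChev Cfsg.Agent.Nodes.RGDFold Cfsg.Agent.Nodes.RGDFoldSL Cfsg.Agent.Nodes.NormalForm
open Cfsg.Agent.KFacts.RgdOpp Cfsg.Agent.KFacts.RgdAut Cfsg.Agent.KFacts.RgdDiag Cfsg.Agent.KFacts.RgdRigid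
  Cfsg.Agent.KFacts.RgdField Cfsg.Agent.KFacts.RgdTau Cfsg.Agent.KFacts.RgdNodes
open Cfsg.Lie Cfsg.Agent.ChevalleyStructure Cfsg.Agent.ChevalleyStructure.Elts
open Cfsg.Agent.ChevalleyStructure.SL2Hom (up lo mem_closure_SL2)
open Cfsg.Agent.KFacts.TwDFour.Out
open Cfsg.Agent.Nodes.RGDTwD4 Cfsg.Agent.Nodes.RGDTwNode.D4
open Cfsg.Agent.CpAut.RgdFix Cfsg.Agent.CpAut.RgdConj Cfsg.Agent.CpAut.RgdTwStd Cfsg.Agent.CpAut.RgdTwD4
open Cfsg.Agent.H28.FamFour (st_mul st_one)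
open Cfsg.Agent.H866.D4Wf.Frame Cfsg.Agent.H866.D4Wf.SLThree Cfsg.Agent.H866.TD

variable {K : Type} [Field K] [Fintype K] {q : ℕ} {hK : Fintype.card K = q ^ 3}
  {φ : K →+* K} {hφ : ∀ x, φ x = x ^ q} {τ : K ≃+* K} {r : ℕ} [Fact r.Prime] [CharP K r]

/-- the automorphism -/
noncomputable abbrev bt (τ : K ≃+* K) (t : ↥(twistedD4 K q)) : MulAut ↥(twistedD4 K q) := MulAut.conj t * st q τ

variable {t : ↥(twistedD4 K q)}

theorem diag_bt (hK : Fintype.card K = q ^ 3) (hφ : ∀ x, φ x = x ^ q) (ht : t ∈ T K q) :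
    Diag (T K q) (X φ q) (bt τ t) 1 := by
  have := (diag_T hK hφ ht).mul (diag_st hK hφ τ)
  rwa [mul_one] at this

theorem mem_XF_n {z : Fin 2 → ℤ} (hz : z ∈ rts) (i : Fin 2) {y : ↥(twistedD4 K q)} (hK : Fintype.card K = q ^ 3)
    (hy : y ∈ XF (X φ q) (bt τ ((n hφ i)⁻¹ * t * n hφ i)) z) :
    n hφ i * y * (n hφ i)⁻¹ ∈ XF (X φ q) (bt τ t) (rep cs isCartan (cs.simple i) z) := by
  rw [mem_XF] at hy ⊢
  refine ⟨n_conj hK hφ i hz hy.1, ?_⟩
  rw [beta_n, hy.2]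

variable (r) in
theorem exists_k1 (hq : IsPrimePow q) (hτ : τ ^ 3 = 1) (hτ1 : τ ≠ 1) (ht : Good3 hK hφ t) :
    ∃ k ∈ XF (X φ q) (bt τ t) ![0, 1] ⊔ XF (X φ q) (bt τ t) ![0, -1],
      Rp cs (rgd' hK hφ r).nsys (cs.simple 1) k := by
  have : Finite CoxeterMatrix.G₂.Group := finiteW cs
  have R := rgd' hK hφ r
  obtain ⟨v, hv, hvf, hv1⟩ := hasFix_short (hK := hK) (hφ := hφ) hq hτ hτ1 (z := ![0, -1]) (by decide) t ht
  have e : (-sr 1 : Fin 2 → ℤ) = ![0, -1] := by decide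
  obtain ⟨a, ha, s, hs, b, hb, e⟩ := R.rk1 1 v (by rw [e]; exact hv) hv1
  have hk : Rp cs R.nsys (cs.simple 1) (s * n hφ 1) := by
    have := (rp_of_mem (cs := cs) (hN := R.nsys) hs).mul (rp_simple cs R.nsys 1)
    rwa [one_mul] at this
  have e' : v = a * (s * n hφ 1) * b := by rw [e]; group
  obtain ⟨h1, h2, h3⟩ := fix_form R (diag_bt (τ := τ) hK hφ ht.mem) (u := a) (k := s * n hφ 1) (v := b)
    (RGD.le_Sup (S := RGD.Pos cs isCartan) ⟨isRoot_sr cs isCartan 1, sr_nonneg 1⟩ ha) hk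
    (RGD.le_Sup (sr_mem_NW R 1) hb) (by rw [← e']; exact hvf)
  refine ⟨s * n hφ 1, ?_, hk⟩
  have e2 : s * n hφ 1 = a⁻¹ * v * b⁻¹ := by rw [e']; group
  rw [e2]
  exact mul_mem (mul_mem (inv_mem (Subgroup.mem_sup_left (mem_XF.2 ⟨by rw [← sr1_eq]; exact ha, h1⟩)))
    (Subgroup.mem_sup_right (mem_XF.2 ⟨hv, hvf⟩))) (inv_mem (Subgroup.mem_sup_left (mem_XF.2 ⟨by rw [← sr1_eq]; exact hb, h3⟩)))

variable (r) in
theorem exists_k11 (hq : IsPrimePow q) (hτ : τ ^ 3 = 1) (hτ1 : τ ≠ 1) (ht : Good3 hK hφ t) :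
    ∃ k ∈ XF (X φ q) (bt τ t) ![1, 1] ⊔ XF (X φ q) (bt τ t) ![-1, -1],
      Rp cs (rgd' hK hφ r).nsys (cs.simple 0 * cs.simple 1 * (cs.simple 0)⁻¹) k := by
  obtain ⟨k, hk, hk'⟩ := exists_k1 r hq hτ hτ1 (good_n0 ht).1
  refine ⟨n hφ 0 * k * (n hφ 0)⁻¹, ?_, ((rp_simple cs (rgd' hK hφ r).nsys 0).mul hk').mul
    (rp_simple cs (rgd' hK hφ r).nsys 0).inv⟩
  have h1 : XF (X φ q) (bt τ ((n hφ 0)⁻¹ * t * n hφ 0)) ![0, 1] ⊔ XF (X φ q) (bt τ ((n hφ 0)⁻¹ * t * n hφ 0)) ![0, -1] ≤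
      (XF (X φ q) (bt τ t) ![1, 1] ⊔ XF (X φ q) (bt τ t) ![-1, -1]).comap (MulAut.conj (n hφ 0)).toMonoidHom := by
    refine sup_le ?_ ?_
    · intro y hy
      have h2 := mem_XF_n (by decide) 0 hK hy
      rw [rep0] at h2
      norm_num at h2
      exact Subgroup.mem_sup_left h2
    · intro y hy
      have h2 := mem_XF_n (by decide) 0 hK hy
      rw [rep0] at h2
      norm_num at h2
      exact Subgroup.mem_sup_right h2
  exact h1 hk

/-- the Weyl group of the fixed points -/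
def WS : Subgroup CoxeterMatrix.G₂.Group := Subgroup.closure {cs.simple 1, cs.simple 0 * cs.simple 1 * (cs.simple 0)⁻¹}

theorem s1_mem : cs.simple 1 ∈ WS := Subgroup.subset_closure (Or.inl rfl)

theorem s010_mem : cs.simple 0 * cs.simple 1 * (cs.simple 0)⁻¹ ∈ WS := Subgroup.subset_closure (Or.inr rfl)

/-- the group generated by the fixed points of the root groups `±β`, `±(α + β)` -/
noncomputable def EE (φ : K →+* K) (β : MulAut ↥(twistedD4 K q)) : Subgroup ↥(twistedD4 K q) :=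
  (XF (X φ q) β ![0, 1] ⊔ XF (X φ q) β ![0, -1]) ⊔ (XF (X φ q) β ![1, 1] ⊔ XF (X φ q) β ![-1, -1])

variable (r) in
theorem exists_kS (hq : IsPrimePow q) (hτ : τ ^ 3 = 1) (hτ1 : τ ≠ 1) (ht : Good3 hK hφ t)
    {w : CoxeterMatrix.G₂.Group} (hw : w ∈ WS) : ∃ k ∈ EE φ (bt τ t), Rp cs (rgd' hK hφ r).nsys w k := by
  refine Subgroup.closure_induction (p := fun w _ => ∃ k ∈ EE φ (bt τ t), Rp cs (rgd' hK hφ r).nsys w k) ?_ ?_ ?_ ?_ hw
  · rintro x (rfl | rfl)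
    · obtain ⟨k, hk, hk'⟩ := exists_k1 r hq hτ hτ1 ht
      exact ⟨k, Subgroup.mem_sup_left hk, hk'⟩
    · obtain ⟨k, hk, hk'⟩ := exists_k11 r hq hτ hτ1 ht
      exact ⟨k, Subgroup.mem_sup_right hk, hk'⟩
  · exact ⟨1, one_mem _, rp_one⟩
  · rintro x y _ _ ⟨k, hk, hk'⟩ ⟨l, hl, hl'⟩
    exact ⟨k * l, mul_mem hk hl, hk'.mul hl'⟩
  · rintro x _ ⟨k, hk, hk'⟩
    exact ⟨k⁻¹, inv_mem hk, hk'.inv⟩

variable (hK hφ r) in
/-- standard representatives and the sign -/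
theorem exists_std_rp (w : CoxeterMatrix.G₂.Group) : ∃ g : ↥(twistedD4 K q), Rp cs (rgd' hK hφ r).nsys w g ∧
    st q τ g = g ∧ ∀ t, Good3 hK hφ t → Good3 hK hφ (g⁻¹ * t * g) ∧
      ((w ∈ WS ∧ chD hφ hK 0 (g⁻¹ * t * g) = chD hφ hK 0 t) ∨
        (w * cs.simple 0 ∈ WS ∧ chD hφ hK 0 (g⁻¹ * t * g) = (chD hφ hK 0 t)⁻¹)) := by
  obtain ⟨ω, rfl⟩ := cs.wordProd_surjective w
  induction ω using List.reverseRecOn with
  | nil =>
    refine ⟨1, by rw [wordProd_nil]; exact rp_one, map_one _, fun t ht => ?_⟩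
    rw [inv_one, one_mul, mul_one, wordProd_nil]
    exact ⟨ht, Or.inl ⟨one_mem _, rfl⟩⟩
  | append_singleton ω i ih =>
    obtain ⟨g, hg, hgf, hgt⟩ := ih
    rw [cs.wordProd_append, wordProd_singleton]
    refine ⟨g * n hφ i, hg.mul (rp_simple cs (rgd' hK hφ r).nsys i), by rw [map_mul, hgf, st_n], fun t ht => ?_⟩
    obtain ⟨h1, h2⟩ := hgt t ht
    have e : (g * n hφ i)⁻¹ * t * (g * n hφ i) = (n hφ i)⁻¹ * (g⁻¹ * t * g) * n hφ i := by group
    rw [e]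
    refine ⟨good_n h1 i, ?_⟩
    have hi : i = 0 ∨ i = 1 := by fin_cases i <;> simp
    rcases hi with rfl | rfl
    · rw [(good_n0 h1).2.1]
      rcases h2 with ⟨h2, h3⟩ | ⟨h2, h3⟩
      · right
        refine ⟨?_, by rw [h3]⟩
        rw [mul_assoc, simple_mul_simple_self, mul_one]
        exact h2
      · left
        exact ⟨h2, by rw [h3, inv_inv]⟩
    · rw [(good_n1 h1).2.1]
      rcases h2 with ⟨h2, h3⟩ | ⟨h2, h3⟩
      · left
        exact ⟨mul_mem h2 s1_mem, h3⟩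
      · right
        refine ⟨?_, h3⟩
        have e2 : cs.wordProd ω * cs.simple 1 * cs.simple 0 = cs.wordProd ω * cs.simple 0 *
            (cs.simple 0 * cs.simple 1 * (cs.simple 0)⁻¹) := by
          rw [inv_simple]
          simp only [mul_assoc]
          rw [simple_mul_simple_cancel_left]
        rw [e2]
        exact mul_mem h2 s010_mem

/-- a fixed representative -/
theorem mem_WS (hq : IsPrimePow q) (hτ : τ ^ 3 = 1) (ht : Good3 hK hφ t)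
    {w : CoxeterMatrix.G₂.Group} {k : ↥(twistedD4 K q)} (hk : Rp cs (rgd' hK hφ r).nsys w k) (hf : bt τ t k = k) :
    w ∈ WS ∧ w ≠ cs.simple 0 := by
  have key : ∀ g : ↥(twistedD4 K q), Rp cs (rgd' hK hφ r).nsys w g → st q τ g = g → Good3 hK hφ (g⁻¹ * t * g) →
      chD hφ hK 0 (g⁻¹ * t * g) = chD hφ hK 0 t := by
    intro g hg hgf hgt
    obtain ⟨s, hs⟩ : ∃ s, s = g⁻¹ * k := ⟨_, rfl⟩
    have hsT : s ∈ T K q := by rw [hs]; exact hg.unique hk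
    have hks : k = g * s := by rw [hs]; group
    have h1 : t * st q τ k * t⁻¹ = k := hf
    rw [hks, map_mul, hgf] at h1
    have h2 : (g⁻¹ * t * g) * st q τ s = s * t := by
      have h3 : t * (g * st q τ s) = g * s * t := mul_inv_eq_iff_eq_mul.1 h1
      calc (g⁻¹ * t * g) * st q τ s = g⁻¹ * (t * (g * st q τ s)) := by group
        _ = s * t := by rw [h3]; group
    have hst : st q τ s ∈ T K q := (st_T τ s).2 hsT
    have h3 := congrArg (chD hφ hK 0) h2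
    rw [ch_mul hK hφ hgt.mem hst, ch_mul hK hφ hsT ht.mem, ch_st hK hφ hsT, rs_zero hK hφ hq hτ, mul_comm] at h3
    exact mul_left_cancel₀ (ch_ne_zero hK hφ hsT 0) h3
  have hinv : chD hφ hK 0 t ≠ (chD hφ hK 0 t)⁻¹ := by
    intro h
    apply ht.ne
    have h1 := ht.h0
    have h0 := ch_ne_zero hK hφ ht.mem 0
    have h2 : chD hφ hK 0 t * chD hφ hK 0 t = 1 := by
      nth_rewrite 2 [h]
      exact mul_inv_cancel₀ h0
    rw [pow_succ, pow_two, h2, one_mul] at h1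
    exact h1
  constructor
  · obtain ⟨g, hg, hgf, hgt⟩ := exists_std_rp (τ := τ) hK hφ r w
    obtain ⟨h1, h2⟩ := hgt t ht
    rcases h2 with ⟨h2, -⟩ | ⟨-, h3⟩
    · exact h2
    · exact absurd ((key g hg hgf h1).symm.trans h3) hinv
  · rintro rfl
    have h1 := key (n hφ 0) (rp_simple cs (rgd' hK hφ r).nsys 0) (st_n hφ τ 0) (good_n0 ht).1
    rw [(good_n0 ht).2.1] at h1
    exact hinv h1.symm

end Cfsg.Agent.H202.TD
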