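import Cfsg.Agent.H202.TD.SlTwo

/-!
# S3509, row `³D₄(q)`: the group `SL₂(q³)` of a `θ`-orbit of three strongly orthogonal roots (helper202)
-/

set_option autoImplicit false
set_option linter.unusedSectionVars false
open Cfsg

namespace Cfsg.Agent.H202.TD

open CoxeterSystem Cfsg.Lie Cfsg.Lie.ChevalleyDatum Cfsg.Agent.H316.U6
open Cfsg.Agent.ChevalleyStructure Cfsg.Agent.ChevalleyStructure.CoxeterGeom
  Cfsg.Agent.ChevalleyStructure.CoxeterGeomTypes Cfsg.Agent.ChevalleyStructure.NPerm Cfsg.Agent.Nodes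
  Cfsg.Agent.Nodes.RGDChev Cfsg.Agent.KFacts.RgdField Cfsg.Agent.KFacts.RgdChevCoord
open Cfsg.Agent.Tits.Roots Cfsg.Agent.Tits.Core
open Cfsg.Agent.BpExc Cfsg.Agent.BpExc.TorCent Cfsg.Agent.BpExc.TorChev Cfsg.Agent.BpExc.Tow
  Cfsg.Agent.BpExc.TowChev Cfsg.Agent.BpExc.Fr Cfsg.Agent.BpExc.Pair Cfsg.Agent.BpExc.LangFr
open Cfsg.Agent.H469.Exc Cfsg.Agent.H169.RG Cfsg.Agent.H864.TD
open Cfsg.Agent.H720.TwFr (permE rho4)
open Cfsg.Agent.ChevalleyStructure.SL2Hom (up lo)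
open scoped commutatorElement

/-- strongly orthogonal roots -/
def SOrth (a b : Fin 4 → ℤ) : Prop :=
  ¬ IsRoot coxeterD4.toCoxeterSystem RGDTwD4.hp.isCartan (a + b) ∧ ¬ IsRoot coxeterD4.toCoxeterSystem RGDTwD4.hp.isCartan (a - b) ∧ a ≠ b

/-! ### the roots -/

/-- the bilinear form of `D₄` -/
def bD (x y : Fin 4 → ℤ) : ℤ :=
  2 * (x 0 * y 0 + x 1 * y 1 + x 2 * y 2 + x 3 * y 3) - (x 0 * y 1 + x 1 * y 0) - (x 2 * y 1 + x 1 * y 2) -
    (x 3 * y 1 + x 1 * y 3)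

theorem bD_self : ∀ s < chevD4.nroots, bD (vec chevD4 4 s) (vec chevD4 4 s) = 2 := by decide +kernel

theorem bD_table : ∀ s < chevD4.nroots, ∀ s' < chevD4.nroots,
    bD (vec chevD4 4 s) (vec chevD4 4 s') = 0 ∨ (∃ u < chevD4.nroots, vec chevD4 4 u = vec chevD4 4 s + vec chevD4 4 s') ∨
      (∃ u < chevD4.nroots, vec chevD4 4 u = vec chevD4 4 s - vec chevD4 4 s') ∨ vec chevD4 4 s = vec chevD4 4 s' ∨
      vec chevD4 4 s = -vec chevD4 4 s' := by decide +kernel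

theorem bD_root {x : Fin 4 → ℤ} (hx : IsRoot coxeterD4.toCoxeterSystem RGDTwD4.hp.isCartan x) : bD x x = 2 := by
  obtain ⟨s, hs, rfl⟩ := (isRoot_iff RGDTwD4.hp coxeterD4.toCoxeterSystem _).1 hx
  exact bD_self s hs

theorem bD_of_sOrth {x y : Fin 4 → ℤ} (hx : IsRoot coxeterD4.toCoxeterSystem RGDTwD4.hp.isCartan x)
    (hy : IsRoot coxeterD4.toCoxeterSystem RGDTwD4.hp.isCartan y) (h : SOrth x y) (h' : x ≠ -y) : bD x y = 0 := by
  obtain ⟨s, hs, rfl⟩ := (isRoot_iff RGDTwD4.hp coxeterD4.toCoxeterSystem _).1 hx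
  obtain ⟨s', hs', rfl⟩ := (isRoot_iff RGDTwD4.hp coxeterD4.toCoxeterSystem _).1 hy
  rcases bD_table s hs s' hs' with h1 | ⟨u, hu, h1⟩ | ⟨u, hu, h1⟩ | h1 | h1
  · exact h1
  · exact absurd ((isRoot_iff RGDTwD4.hp coxeterD4.toCoxeterSystem _).2 ⟨u, hu, h1⟩) h.1
  · exact absurd ((isRoot_iff RGDTwD4.hp coxeterD4.toCoxeterSystem _).2 ⟨u, hu, h1⟩) h.2.1
  · exact absurd h1 h.2.2
  · exact absurd h1 h'

theorem bD_comb (x y : Fin 4 → ℤ) (a b : ℤ) :
    bD (a • x + b • y) (a • x + b • y) = a ^ 2 * bD x x + 2 * (a * b) * bD x y + b ^ 2 * bD y y := by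
  simp only [bD, Pi.add_apply, Pi.smul_apply, smul_eq_mul]
  ring

theorem bD_neg (x y : Fin 4 → ℤ) : bD x (-y) = -bD x y := by
  simp only [bD, Pi.neg_apply]
  ring

theorem bD_neg' (x y : Fin 4 → ℤ) : bD (-x) y = -bD x y := by
  simp only [bD, Pi.neg_apply]
  ring

/-- root groups of orthogonal roots commute -/
theorem commute_of_bD {k : Type} [Field k] {x y : Fin 4 → ℤ}
    (hx : IsRoot coxeterD4.toCoxeterSystem RGDTwD4.hp.isCartan x)
    (hy : IsRoot coxeterD4.toCoxeterSystem RGDTwD4.hp.isCartan y) (h : bD x y = 0) {a b : ↥(chevD4.group k)}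
    (ha : a ∈ XX chevD4 4 k x) (hb : b ∈ XX chevD4 4 k y) : Commute a b := by
  have h2 := bD_root hx
  have hxy : x ≠ y := by rintro rfl; omega
  have hxy' : x ≠ -y := by
    rintro rfl
    rw [bD_neg', bD_root hy] at h
    omega
  have h1 := CommZ.comm_mem_Z RGDTwD4.hp coxeterD4.toCoxeterSystem hx hy hxy hxy' ha hb
  have h3 : CommZ.combZ coxeterD4.toCoxeterSystem RGDTwD4.hp x y = ∅ := by
    ext z
    simp only [Set.mem_empty_iff_false, iff_false]
    rintro ⟨hzr, i, j, hi, hj, e⟩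
    have h4 := bD_root hzr
    have h5 : z = (i : ℤ) • x + (j : ℤ) • y := by rw [e, natCast_zsmul, natCast_zsmul]
    rw [h5, bD_comb, h, h2, bD_root hy] at h4
    have hi' : (1 : ℤ) ≤ i := by exact_mod_cast hi
    have hj' : (1 : ℤ) ≤ j := by exact_mod_cast hj
    nlinarith
  rw [h3, OppDec.Sup_empty, Subgroup.mem_bot, commutatorElement_eq_one_iff_commute] at h1
  exact h1

/-- the rank one groups of orthogonal roots commute -/
theorem sup_commute_of_bD {k : Type} [Field k] {x y : Fin 4 → ℤ}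
    (hx : IsRoot coxeterD4.toCoxeterSystem RGDTwD4.hp.isCartan x)
    (hy : IsRoot coxeterD4.toCoxeterSystem RGDTwD4.hp.isCartan y) (h : bD x y = 0) {a b : ↥(chevD4.group k)}
    (ha : a ∈ XX chevD4 4 k x ⊔ XX chevD4 4 k (-x)) (hb : b ∈ XX chevD4 4 k y ⊔ XX chevD4 4 k (-y)) :
    Commute a b := by
  have key : ∀ {x y : Fin 4 → ℤ} (_ : IsRoot coxeterD4.toCoxeterSystem RGDTwD4.hp.isCartan x)
      (_ : IsRoot coxeterD4.toCoxeterSystem RGDTwD4.hp.isCartan y) (_ : bD x y = 0) {a b : ↥(chevD4.group k)}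
      (_ : a ∈ XX chevD4 4 k x) (_ : b ∈ XX chevD4 4 k y ⊔ XX chevD4 4 k (-y)), Commute a b := by
    intro x y hx hy h a b ha hb
    have h2 : XX chevD4 4 k y ⊔ XX chevD4 4 k (-y) ≤ Subgroup.centralizer {a} := by
      refine sup_le ?_ ?_
      · intro c hc
        rw [Subgroup.mem_centralizer_singleton_iff]
        exact (commute_of_bD hx hy h ha hc).eq.symm
      · intro c hc
        rw [Subgroup.mem_centralizer_singleton_iff]
        exact (commute_of_bD hx hy.neg (by rw [bD_neg, h, neg_zero]) ha hc).eq.symm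
    exact (Subgroup.mem_centralizer_singleton_iff.1 (h2 hb)).symm
  have h2 : XX chevD4 4 k x ⊔ XX chevD4 4 k (-x) ≤ Subgroup.centralizer {b} := by
    refine sup_le ?_ ?_
    · intro c hc
      rw [Subgroup.mem_centralizer_singleton_iff]
      exact (key hx hy h hc hb).eq
    · intro c hc
      rw [Subgroup.mem_centralizer_singleton_iff]
      exact (key hx.neg hy (by rw [bD_neg', h, neg_zero]) hc hb).eq
  exact Subgroup.mem_centralizer_singleton_iff.1 (h2 ha)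

theorem mem_XX {r : ℕ} [Fact r.Prime] {x : Fin 4 → ℤ} (hx : IsRoot coxeterD4.toCoxeterSystem RGDTwD4.hp.isCartan x)
    {y : Y4 r} : y ∈ XX chevD4 4 (KK r) x ↔ ∃ t, y = xc RGDTwD4.hp x t := by
  obtain ⟨s, hs, rfl⟩ := (isRoot_iff RGDTwD4.hp coxeterD4.toCoxeterSystem _).1 hx
  exact HX.mem_XX_xc RGDTwD4.hp hs

/-- unipotent central elements -/
theorem up_of_sign {k : Type*} [Field k] {t : k} (h : (up t : Matrix.SpecialLinearGroup (Fin 2) k) = 1 ∨
    (up t : Matrix.SpecialLinearGroup (Fin 2) k) = -1) : t = 0 := by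
  rcases h with h | h
  · have := congrArg (fun B : Matrix.SpecialLinearGroup (Fin 2) k => B.1 0 1) h
    simpa [up] using this
  · have := congrArg (fun B : Matrix.SpecialLinearGroup (Fin 2) k => B.1 0 1) h
    simpa [up] using this

section

variable {r q : ℕ} [hr : Fact r.Prime] {K₀ : Type} [Group K₀] {m : MData RGDTwD4.hp r q K₀}

theorem psi_of {s : Y4 r} (f : TorForm m s) {b : Fin 4 → ℤ}
    (hb : IsRoot coxeterD4.toCoxeterSystem RGDTwD4.hp.isCartan b) (h3 : f.θ (f.θ (f.θ b)) = b)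
    (h01 : SOrth b (f.θ b)) (h12 : SOrth (f.θ b) (f.θ (f.θ b))) (h02 : SOrth b (f.θ (f.θ b)))
    (hbt : b ∈ Sx coxeterD4.toCoxeterSystem RGDTwD4.hp.isCartan (ch RGDTwD4.hp) f.t) :
    ∃ (F : Type) (_ : Field F) (_ : Fintype F) (ψ : Matrix.SpecialLinearGroup (Fin 2) F →* Y4 r),
      Fintype.card F = q ^ 3 ∧ (∀ g, m.σ (ψ g) = ψ g ∧ ψ g * s = s * ψ g) ∧
      (∀ c, ψ (SL2Hom.up c) = 1 → c = 0) ∧
      (∀ x₀ ∈ XX chevD4 4 (KK r) b, ∀ x₁ ∈ XX chevD4 4 (KK r) (f.θ b), ∀ x₂ ∈ XX chevD4 4 (KK r) (f.θ (f.θ b)),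
        f.α (x₀ * x₁ * x₂) = x₀ * x₁ * x₂ → ∃ c, f.z * (x₀ * x₁ * x₂) * f.z⁻¹ = ψ (SL2Hom.up c)) ∧
      ∀ y, (∀ x ∈ XX chevD4 4 (KK r) b, y * x = x * y) → (∀ x ∈ XX chevD4 4 (KK r) (-b), y * x = x * y) →
        f.α y = y → ∀ g, f.z * y * f.z⁻¹ * ψ g = ψ g * (f.z * y * f.z⁻¹) := by
  have F0 : Fr coxeterD4.toCoxeterSystem RGDTwD4.hp.isCartan (TT chevD4 (KK r)) (XX chevD4 4 (KK r)) f.α f.θ := f.fr
  have hτ : IsFrob r m.e f.α := f.frob
  have hτt : f.α f.t = f.t := f.fix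
  have hb1 : IsRoot coxeterD4.toCoxeterSystem RGDTwD4.hp.isCartan (f.θ b) := (F0.root _).2 hb
  have hb2 : IsRoot coxeterD4.toCoxeterSystem RGDTwD4.hp.isCartan (f.θ (f.θ b)) := (F0.root _).2 hb1
  -- opposite roots do not occur
  have n01 : b ≠ -f.θ b := by
    intro h
    have h1 := congrArg f.θ h
    rw [map_neg] at h1
    exact h02.2.2 ((h.trans (congrArg Neg.neg h1)).trans (neg_neg _))
  have n12 : f.θ b ≠ -f.θ (f.θ b) := by
    intro h
    rw [← map_neg] at h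
    exact n01 (f.θ.injective h)
  have n02 : b ≠ -f.θ (f.θ b) := by
    intro h
    have h1 := congrArg f.θ h
    rw [map_neg, h3] at h1
    exact n01 ((neg_neg b).symm.trans (congrArg Neg.neg h1.symm))
  have o01 := bD_of_sOrth hb hb1 h01 n01
  have o12 := bD_of_sOrth hb1 hb2 h12 n12
  have o02 := bD_of_sOrth hb hb2 h02 n02
  -- the homomorphism of `b`
  obtain ⟨g3, F3, hg3⟩ := F0.pow 3
  have hg3b : g3 b = b := by rw [hg3]; exact h3
  obtain ⟨φ, β, hβ, hup, hlo, hker, hτu, hτl⟩ := exists_phi RGDTwD4.hp coxeterD4.toCoxeterSystem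
    (Nat.mul_pos three_pos m.he) (hτ.pow 3) F3 hb hg3b
  have hXu : ∀ y : Y4 r, y ∈ XX chevD4 4 (KK r) b ↔ ∃ c, y = φ (up c) := by
    intro y
    rw [mem_XX hb]
    constructor
    · rintro ⟨t, rfl⟩
      exact ⟨β⁻¹ * t, by rw [hup, mul_inv_cancel_left₀ hβ]⟩
    · rintro ⟨c, rfl⟩
      exact ⟨β * c, hup c⟩
  have hXl : ∀ y : Y4 r, y ∈ XX chevD4 4 (KK r) (-b) ↔ ∃ c, y = φ (lo c) := by
    intro y
    rw [mem_XX hb.neg]
    constructor
    · rintro ⟨t, rfl⟩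
      exact ⟨β * t, by rw [hlo, inv_mul_cancel_left₀ hβ]⟩
    · rintro ⟨c, rfl⟩
      exact ⟨β⁻¹ * c, hlo c⟩
  have hcl : ∀ (N : Subgroup (Y4 r)), XX chevD4 4 (KK r) b ≤ N → XX chevD4 4 (KK r) (-b) ≤ N → ∀ A, φ A ∈ N := by
    intro N h1 h2 A
    have h4 : Subgroup.closure (Set.range (up (F := KK r)) ∪ Set.range (lo (F := KK r))) ≤ N.comap φ := by
      rw [Subgroup.closure_le]
      rintro _ (⟨c, rfl⟩ | ⟨c, rfl⟩)
      · exact h1 ((hXu _).2 ⟨c, rfl⟩)
      · exact h2 ((hXl _).2 ⟨c, rfl⟩)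
    exact h4 (SL2Hom.mem_closure_SL2 A)
  have hφL : ∀ A, φ A ∈ XX chevD4 4 (KK r) b ⊔ XX chevD4 4 (KK r) (-b) := hcl _ le_sup_left le_sup_right
  -- the images under `α`
  have hmap : ∀ {a : Fin 4 → ℤ} (_ : IsRoot coxeterD4.toCoxeterSystem RGDTwD4.hp.isCartan a) (y : Y4 r),
      y ∈ XX chevD4 4 (KK r) a ⊔ XX chevD4 4 (KK r) (-a) →
      f.α y ∈ XX chevD4 4 (KK r) (f.θ a) ⊔ XX chevD4 4 (KK r) (-f.θ a) := by
    intro a ha y hy
    have h1 : XX chevD4 4 (KK r) a ⊔ XX chevD4 4 (KK r) (-a) ≤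
        (XX chevD4 4 (KK r) (f.θ a) ⊔ XX chevD4 4 (KK r) (-f.θ a)).comap f.α.toMonoidHom := by
      refine sup_le ?_ ?_
      · intro z hz
        exact (le_sup_left : _ ≤ XX chevD4 4 (KK r) (f.θ a) ⊔ XX chevD4 4 (KK r) (-f.θ a)) ((F0.map _ ha z).2 hz)
      · intro z hz
        have h2 := (F0.map _ ha.neg z).2 hz
        rw [map_neg] at h2
        exact (le_sup_right : _ ≤ XX chevD4 4 (KK r) (f.θ a) ⊔ XX chevD4 4 (KK r) (-f.θ a)) h2
    exact h1 hy
  have hB : Blk f.α (r ^ (3 * m.e)) 3 φ := by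
    refine ⟨three_pos, hker, hτu, hτl, fun i hi hi3 g g' => ?_⟩
    have h1 := hmap hb _ (hφL g')
    obtain rfl | rfl : i = 1 ∨ i = 2 := by omega
    · rw [pow_one]
      exact sup_commute_of_bD hb hb1 o01 (hφL g) h1
    · rw [pow_two, MulAut.mul_apply]
      exact sup_commute_of_bD hb hb2 o02 (hφL g) (hmap hb1 _ h1)
  -- the field
  obtain ⟨F, iF, iF', ι, hcard, hι, hι'⟩ := exists_field (r := r) (Nat.mul_pos three_pos m.he)
  have hfix : ∀ A : Matrix.SpecialLinearGroup (Fin 2) F, (f.α ^ 3) (φ (Matrix.SpecialLinearGroup.map ι A)) =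
      φ (Matrix.SpecialLinearGroup.map ι A) := by
    intro A
    have h1 : (((f.α ^ 3).toMonoidHom.comp φ).comp (Matrix.SpecialLinearGroup.map ι)) =
        φ.comp (Matrix.SpecialLinearGroup.map ι) := by
      refine hom_ext (fun c => ?_) fun c => ?_
      · show (f.α ^ 3) (φ (Matrix.SpecialLinearGroup.map ι (up c))) = φ (Matrix.SpecialLinearGroup.map ι (up c))
        rw [map_up, hτu, hι]
      · show (f.α ^ 3) (φ (Matrix.SpecialLinearGroup.map ι (lo c))) = φ (Matrix.SpecialLinearGroup.map ι (lo c))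
        rw [map_lo, hτl, hι]
    exact DFunLike.congr_fun h1 A
  let ψ : Matrix.SpecialLinearGroup (Fin 2) F →* Y4 r :=
    (MulAut.conj f.z).toMonoidHom.comp ((opHom hB).comp (Matrix.SpecialLinearGroup.map ι))
  have hψ : ∀ A, ψ A = f.z * opHom hB (Matrix.SpecialLinearGroup.map ι A) * f.z⁻¹ := fun A => rfl
  have hψz : ∀ A, f.z⁻¹ * ψ A * f.z = opHom hB (Matrix.SpecialLinearGroup.map ι A) := by
    intro A
    rw [hψ]
    group
  have hpow : ∀ y : Y4 r, f.α y = y → ∀ j, (f.α ^ j) y = y := by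
    intro y hy j
    induction j with
    | zero => rfl
    | succ j ih => rw [pow_succ', MulAut.mul_apply, ih, hy]
  -- commuting with elements fixed by `α`
  have hcen : ∀ y : Y4 r, f.α y = y → (∀ A, Commute (φ A) y) → ∀ A, Commute (opHom hB A) y := by
    intro y hy hc A
    have h1 : opHom hB A ∈ Subgroup.centralizer {y} := by
      rw [opHom_apply]
      refine NInst.op_mem fun j _ => ?_
      rw [Subgroup.mem_centralizer_singleton_iff]
      have h4 := (hc A).map (f.α ^ j)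
      rw [hpow y hy j] at h4
      exact h4.eq
    exact Subgroup.mem_centralizer_singleton_iff.1 h1
  refine ⟨F, iF, iF', ψ, ?_, fun g => ⟨?_, ?_⟩, fun c hc => ?_, ?_, ?_⟩
  · rw [hcard, mul_comm, pow_mul, m.hq]
  · rw [hψ, f.fix_iff', opHom_apply]
    refine NInst.op_fixed (hfix g) (fun i hi => ?_) three_pos
    rcases Nat.eq_zero_or_pos i with rfl | h0
    · exact Commute.refl _
    · exact hB.comm i h0 hi _ _
  · rw [f.comm_iff, hψz]
    refine hcen _ hτt (fun A => ?_) _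
    have C := coordsL (k := KK r) RGDTwD4.hp coxeterD4.toCoxeterSystem (locFin r) r
    have hA := chAddL (k := KK r) RGDTwD4.hp coxeterD4.toCoxeterSystem (locFin r) r
    have hnb : -b ∈ Sx coxeterD4.toCoxeterSystem RGDTwD4.hp.isCartan (ch RGDTwD4.hp) f.t := by
      obtain ⟨χ, χ0, χa, hχ⟩ := hA f.t f.mem
      refine ⟨hb.neg, ?_⟩
      have h1 := χa b (-b)
      rw [add_neg_cancel, χ0, ← hχ b hb, hbt.2, one_mul] at h1
      rw [hχ _ hb.neg, ← h1]
    have h1 : φ A ∈ Subgroup.centralizer {f.t} := hcl _ (X_le_centralizer C f.mem hbt) (X_le_centralizer C f.mem hnb) A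
    exact Subgroup.mem_centralizer_singleton_iff.1 h1
  · have h1 : ((opHom hB).comp (Matrix.SpecialLinearGroup.map ι)) (up c) = 1 := by
      have h2 := hψz (up c)
      rw [hc, mul_one, inv_mul_cancel] at h2
      exact h2.symm
    exact up_of_sign (hB.ker_comp ι h1)
  · -- the fixed elements of `X_b X_θb X_θθb`
    intro x₀ h0 x₁ h1 x₂ h2 hx
    have cen : ∀ v ∈ XX chevD4 4 (KK r) b,
        (∀ w ∈ XX chevD4 4 (KK r) b ⊔ XX chevD4 4 (KK r) (-b), Commute v w) → v = 1 := by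
      intro v hv hc
      obtain ⟨c, rfl⟩ := (hXu v).1 hv
      have h4 : (up c : Matrix.SpecialLinearGroup (Fin 2) (KK r)) = 1 ∨ up c = -1 := by
        apply eq_or_of_sign
        intro g
        have h5 : φ ((up c * g) * (g * up c)⁻¹) = 1 := by
          rw [map_mul, map_inv, map_mul, map_mul, (hc _ (hφL g)).eq, mul_inv_cancel]
        rcases hker _ h5 with h6 | h6
        · exact Or.inl (mul_inv_eq_one.1 h6)
        · right
          have h7 := mul_inv_eq_iff_eq_mul.1 h6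
          rw [h7, neg_mul, one_mul]
      have h8 : (up (0 : KK r) : Matrix.SpecialLinearGroup (Fin 2) (KK r)) = 1 := by
        apply Subtype.ext
        ext i j
        fin_cases i <;> fin_cases j <;> simp [up]
      rw [up_of_sign h4, h8, map_one]
    have hL : ∀ {a : Fin 4 → ℤ} {y : Y4 r}, y ∈ XX chevD4 4 (KK r) a →
        y ∈ XX chevD4 4 (KK r) a ⊔ XX chevD4 4 (KK r) (-a) := fun h =>
      (le_sup_left : _ ≤ XX chevD4 4 (KK r) _ ⊔ XX chevD4 4 (KK r) (-_)) h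
    have a0 : f.α x₀ ∈ XX chevD4 4 (KK r) (f.θ b) := (F0.map _ hb _).2 h0
    have a1 : f.α x₁ ∈ XX chevD4 4 (KK r) (f.θ (f.θ b)) := (F0.map _ hb1 _).2 h1
    have a2 : f.α x₂ ∈ XX chevD4 4 (KK r) b := by
      have := (F0.map _ hb2 _).2 h2
      rwa [h3] at this
    rw [map_mul, map_mul] at hx
    have c20 : Commute (f.α x₂) (f.α x₀) := commute_of_bD hb hb1 o01 a2 a0
    have c21 : Commute (f.α x₂) (f.α x₁) := commute_of_bD hb hb2 o02 a2 a1
    have e1 : f.α x₂ * (f.α x₀ * f.α x₁) = x₀ * (x₁ * x₂) := by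
      rw [← mul_assoc x₀, ← hx, (c20.mul_right c21).eq]
    have e2 : x₀⁻¹ * f.α x₂ = (x₁ * x₂) * (f.α x₀ * f.α x₁)⁻¹ := by
      rw [eq_mul_inv_iff_mul_eq, mul_assoc, e1, inv_mul_cancel_left]
    have e3 : x₀⁻¹ * f.α x₂ = 1 := by
      apply cen _ (mul_mem (inv_mem h0) a2)
      intro w hw
      rw [e2]
      have k1 : ∀ y ∈ XX chevD4 4 (KK r) (f.θ b), Commute y w := fun y hy =>
        (sup_commute_of_bD hb hb1 o01 hw (hL hy)).symm
      have k2 : ∀ y ∈ XX chevD4 4 (KK r) (f.θ (f.θ b)), Commute y w := fun y hy =>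
        (sup_commute_of_bD hb hb2 o02 hw (hL hy)).symm
      exact ((k1 _ h1).mul_left (k2 _ h2)).mul_left ((k1 _ a0).mul_left (k2 _ a1)).inv_left
    have e4 : f.α x₂ = x₀ := (inv_mul_eq_one.1 e3).symm
    rw [e4] at e1
    have e5 : f.α x₀ * f.α x₁ = x₁ * x₂ := mul_left_cancel e1
    -- `v = x₁⁻¹ α x₀`
    have e6 : x₁⁻¹ * f.α x₀ = x₂ * (f.α x₁)⁻¹ := by
      rw [eq_mul_inv_iff_mul_eq, mul_assoc, e5, inv_mul_cancel_left]
    obtain ⟨v, hv⟩ := f.α.surjective (x₁⁻¹ * f.α x₀)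
    have e7 : v = 1 := by
      apply cen v
      · rw [← F0.map _ hb, hv]
        exact mul_mem (inv_mem h1) a0
      · intro w hw
        have h4 : Commute (f.α v) (f.α w) := by
          rw [hv, e6]
          have k2 : ∀ y ∈ XX chevD4 4 (KK r) (f.θ (f.θ b)), Commute y (f.α w) := fun y hy =>
            (sup_commute_of_bD hb1 hb2 o12 (hmap hb _ hw) (hL hy)).symm
          exact (k2 _ h2).mul_left (k2 _ a1).inv_left
        have h5 := h4.eq
        rw [← map_mul, ← map_mul] at h5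
        exact f.α.injective h5
    rw [e7, map_one] at hv
    have e8 : f.α x₀ = x₁ := (inv_mul_eq_one.1 hv.symm).symm
    have e9 : f.α x₁ = x₂ := by
      rw [e8] at e5
      exact mul_left_cancel e5
    obtain ⟨c, hc⟩ := (hXu x₀).1 h0
    have e10 : (f.α ^ 3) x₀ = x₀ := by
      show f.α (f.α (f.α x₀)) = x₀
      rw [e8, e9, e4]
    have e11 : c ^ r ^ (3 * m.e) = c := by
      have h4 := e10
      rw [hc, hτu] at h4
      have h5 : (up (c ^ r ^ (3 * m.e) - c) : Matrix.SpecialLinearGroup (Fin 2) (KK r)) * up c =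
          up (c ^ r ^ (3 * m.e)) := by
        apply Subtype.ext
        show (up (c ^ r ^ (3 * m.e) - c)).1 * (up c).1 = (up (c ^ r ^ (3 * m.e))).1
        ext i j
        fin_cases i <;> fin_cases j <;> simp [up, Matrix.mul_apply, Fin.sum_univ_two]
      rw [← h5, map_mul] at h4
      exact sub_eq_zero.1 (up_of_sign (hker _ (mul_eq_right.1 h4)))
    obtain ⟨d, hd⟩ := hι' c e11
    refine ⟨d, ?_⟩
    rw [hψ, map_up, hd, opHom_apply, ← hc]
    have e12 : NInst.op f.α x₀ 3 = x₀ * x₁ * x₂ := by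
      rw [NInst.op_succ, NInst.op_succ, NInst.op_succ]
      show 1 * x₀ * f.α x₀ * f.α (f.α x₀) = _
      rw [one_mul, e8, e9]
    rw [e12]
  · intro y hy1 hy2 hαy g
    have h1 : ∀ A, Commute (φ A) y := by
      intro A
      have h2 : φ A ∈ Subgroup.centralizer {y} := hcl _
        (fun x hx => by rw [Subgroup.mem_centralizer_singleton_iff]; exact (hy1 x hx).symm)
        (fun x hx => by rw [Subgroup.mem_centralizer_singleton_iff]; exact (hy2 x hx).symm) A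
      exact Subgroup.mem_centralizer_singleton_iff.1 h2
    have h2 := (hcen y hαy h1 (Matrix.SpecialLinearGroup.map ι g)).eq
    rw [hψ]
    calc f.z * y * f.z⁻¹ * (f.z * opHom hB (Matrix.SpecialLinearGroup.map ι g) * f.z⁻¹)
        = f.z * (y * opHom hB (Matrix.SpecialLinearGroup.map ι g)) * f.z⁻¹ := by group
      _ = f.z * (opHom hB (Matrix.SpecialLinearGroup.map ι g) * y) * f.z⁻¹ := by rw [h2]
      _ = _ := by group

end

/-- BOX T4b: the group `SL₂(q³)` of a `θ`-orbit of three strongly orthogonal roots (any frame automorphism `α`) -/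
theorem exists_psi {r q : ℕ} [hr : Fact r.Prime] {K₀ : Type} [Group K₀] [Finite K₀] (m : MData RGDTwD4.hp r q K₀)
    (_hg : m.g = permE rho4) (_hdd : m.dd = 1) {s : Y4 r} (f : TorForm m s) {b : Fin 4 → ℤ}
    (hb : IsRoot coxeterD4.toCoxeterSystem RGDTwD4.hp.isCartan b) (h3 : f.θ (f.θ (f.θ b)) = b)
    (h01 : SOrth b (f.θ b)) (h12 : SOrth (f.θ b) (f.θ (f.θ b))) (h02 : SOrth b (f.θ (f.θ b)))
    (hbt : b ∈ Sx coxeterD4.toCoxeterSystem RGDTwD4.hp.isCartan (ch RGDTwD4.hp) f.t) :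
    ∃ (F : Type) (_ : Field F) (_ : Fintype F) (ψ : Matrix.SpecialLinearGroup (Fin 2) F →* Y4 r),
      Fintype.card F = q ^ 3 ∧ (∀ g, m.σ (ψ g) = ψ g ∧ ψ g * s = s * ψ g) ∧
      (∀ c, ψ (SL2Hom.up c) = 1 → c = 0) ∧
      (∀ x₀ ∈ XX chevD4 4 (KK r) b, ∀ x₁ ∈ XX chevD4 4 (KK r) (f.θ b), ∀ x₂ ∈ XX chevD4 4 (KK r) (f.θ (f.θ b)),
        f.α (x₀ * x₁ * x₂) = x₀ * x₁ * x₂ → ∃ c, f.z * (x₀ * x₁ * x₂) * f.z⁻¹ = ψ (SL2Hom.up c)) ∧
      ∀ y, (∀ x ∈ XX chevD4 4 (KK r) b, y * x = x * y) → (∀ x ∈ XX chevD4 4 (KK r) (-b), y * x = x * y) →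
        f.α y = y → ∀ g, f.z * y * f.z⁻¹ * ψ g = ψ g * (f.z * y * f.z⁻¹) :=
  psi_of f hb h3 h01 h12 h02 hbt

end Cfsg.Agent.H202.TD
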