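import Cfsg.Agent.H866.TD.Cls

/-!
# S3509, `³D₄(q)`: the torus and the reflections (helper202)

* `act_lo` : the action of the torus on the negative simple root groups;
* `n_conj_T` : `n i ⁻¹ t n i = Φ i (hS (χ i t))⁻¹ t`;
* `Good3 t` : the characters of `t` are cube roots of unity in `F_q`; `good_n0`, `good_n1`.
-/

set_option autoImplicit false
set_option linter.unusedSectionVars false
set_option maxHeartbeats 400000

namespace Cfsg.Agent.H202.TD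

open CoxeterSystem Cfsg.Agent.ChevalleyStructure.CoxeterGeom Cfsg.Agent.Tits.Roots Cfsg.Agent.Tits.Core
  Cfsg.Agent.Tits.Exchange Cfsg.Agent.Nodes.Reps Cfsg.Agent.Nodes.BNOf Cfsg.Agent.Nodes.StabComb
  Cfsg.Agent.Nodes.Bruhat Cfsg.Agent.Nodes.OppDec Cfsg.Agent.Nodes.LeviDec Cfsg.Agent.Nodes.RGDTwGen
  Cfsg.Agent.Nodes.RGDChev Cfsg.Agent.Nodes.RGDFold Cfsg.Agent.Nodes.RGDFoldSL Cfsg.Agent.Nodes.NormalForm
open Cfsg.Agent.KFacts.RgdOpp Cfsg.Agent.KFacts.RgdAut Cfsg.Agent.KFacts.RgdDiag Cfsg.Agent.KFacts.RgdRigid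
  Cfsg.Agent.KFacts.RgdField Cfsg.Agent.KFacts.RgdTau Cfsg.Agent.KFacts.RgdNodes
open Cfsg.Lie Cfsg.Agent.ChevalleyStructure Cfsg.Agent.ChevalleyStructure.Elts
open Cfsg.Agent.ChevalleyStructure.SL2Hom (up lo mem_closure_SL2)
open Cfsg.Agent.KFacts.TwDFour.Out
open Cfsg.Agent.Nodes.RGDTwD4 Cfsg.Agent.Nodes.RGDTwNode.D4
open Cfsg.Agent.CpAut.RgdFix Cfsg.Agent.CpAut.RgdConj Cfsg.Agent.CpAut.RgdTwStd Cfsg.Agent.CpAut.RgdTwD4
open Cfsg.Agent.H28.FamFour (st_mul st_one)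
open Cfsg.Agent.BpExc.FamField (exists_pow_eq forall_pow_iff)
open Cfsg.Agent.H866.D4Wf.Frame Cfsg.Agent.H866.D4Wf.SLThree Cfsg.Agent.H866.TD

section SL

variable {F : Type*} [Field F]

theorem lo_form {a : F} (_ha : a ≠ 0) : lo a = up a⁻¹ * wS (-a⁻¹) * up a⁻¹ := by
  unfold wS
  rw [inv_neg, neg_neg, inv_inv]
  have e : up a⁻¹ * up (-a⁻¹) = (1 : Matrix.SpecialLinearGroup (Fin 2) F) := by
    rw [← up_inv', mul_inv_cancel]
  have e' : up (-a⁻¹) * up a⁻¹ = (1 : Matrix.SpecialLinearGroup (Fin 2) F) := by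
    rw [← up_inv', inv_mul_cancel]
  calc lo a = 1 * lo a * 1 := by rw [one_mul, mul_one]
    _ = (up a⁻¹ * up (-a⁻¹)) * lo a * (up (-a⁻¹) * up a⁻¹) := by rw [e, e']
    _ = _ := by simp only [mul_assoc]

theorem wS_eq {c : F} (hc : c ≠ 0) : wS c = hS c * wS 1 := by
  apply Subtype.ext
  rw [Matrix.SpecialLinearGroup.coe_mul, coe_wS hc, coe_hS hc, coe_wS one_ne_zero, Matrix.mul_fin_two]
  simp

theorem wS_conj {c : F} (hc : c ≠ 0) : (wS 1)⁻¹ * hS c * wS 1 = (hS c)⁻¹ := by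
  rw [mul_assoc, ← wS_eq hc, inv_mul_eq_iff_eq_mul, eq_mul_inv_iff_mul_eq]
  apply Subtype.ext
  rw [Matrix.SpecialLinearGroup.coe_mul, coe_wS hc, coe_hS hc, coe_wS one_ne_zero, Matrix.mul_fin_two]
  simp [hc]

end SL

variable {K : Type} [Field K] [Fintype K] {q : ℕ} (hK : Fintype.card K = q ^ 3)
  {φ : K →+* K} (hφ : ∀ x, φ x = x ^ q)

include hK in
/-- the action of the torus on the negative root groups -/
theorem act_lo {t : ↥(twistedD4 K q)} (ht : t ∈ T K q) (i : Fin 2) (a : KD φ i) :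
    t * PhiD hφ hK i (lo a) * t⁻¹ = PhiD hφ hK i (lo ((chD hφ hK i t)⁻¹ * a)) := by
  obtain ⟨r, hr⟩ := CharP.exists K
  have : Fact r.Prime := ⟨CharP.char_is_prime K r⟩
  have : Finite CoxeterMatrix.G₂.Group := finiteW cs
  have R := rgd' hK hφ r
  have hlo0 : lo (0 : KD φ i) = 1 := by
    apply Subtype.ext
    ext s t
    fin_cases s <;> fin_cases t <;> simp [lo]
  by_cases ha : a = 0
  · rw [ha, mul_zero, hlo0, map_one, mul_one, mul_inv_cancel]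
  obtain ⟨b, hb⟩ : ∃ b, t * PhiD hφ hK i (lo a) * t⁻¹ = PhiD hφ hK i (lo b) := by
    refine (mem_negX hK hφ i _).1 ?_
    rw [← R.tor _ (isRoot_sr cs isCartan i).neg t ht]
    exact conj_mem_cj.2 ((mem_negX hK hφ i _).2 ⟨_, rfl⟩)
  have hup : ∀ a, PhiD hφ hK i (up a) ∈ X φ q (sr i) := fun a => (mem_X hφ hK i _).2 ⟨a, rfl⟩
  have hwT : ∀ c : KD φ i, c ≠ 0 → Rp cs R.nsys (cs.simple i) (PhiD hφ hK i (wS c)) := by
    intro c hc
    rw [wS_eq hc, map_mul, PhiD_wS]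
    have := (rp_of_mem (cs := cs) (hN := R.nsys) (PhiD_hS hφ hK i c hc)).mul (rp_simple cs R.nsys i)
    rwa [one_mul] at this
  have hb0 : b ≠ 0 := by
    rintro rfl
    rw [hlo0, map_one] at hb
    have h1 : PhiD hφ hK i (lo a) = 1 := by
      have h2 : PhiD hφ hK i (lo a) = t⁻¹ * (t * PhiD hφ hK i (lo a) * t⁻¹) * t := by group
      rw [h2, hb]; group
    rw [lo_form ha, map_mul, map_mul] at h1
    have h3 : PhiD hφ hK i (wS (-a⁻¹)) ∈ RGD.B cs isCartan (T K q) (X φ q) := by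
      have hXB : ∀ a, PhiD hφ hK i (up a) ∈ RGD.B cs isCartan (T K q) (X φ q) := fun a =>
        RGD.X_le_B (isRoot_sr cs isCartan i) (sr_nonneg i) (hup a)
      have e : PhiD hφ hK i (wS (-a⁻¹)) = (PhiD hφ hK i (up a⁻¹))⁻¹ * (PhiD hφ hK i (up a⁻¹) *
        PhiD hφ hK i (wS (-a⁻¹)) * PhiD hφ hK i (up a⁻¹)) * (PhiD hφ hK i (up a⁻¹))⁻¹ := by group
      rw [e, h1]
      exact mul_mem (mul_mem (inv_mem (hXB _)) (one_mem _)) (inv_mem (hXB _))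
    have h1 := cell_one_of_mem (hN := R.nsys) h3
    have h2 := cell_of_rp (h := isCartan) (X := X φ q) (hwT (-a⁻¹) (neg_ne_zero.2 (inv_ne_zero ha)))
    have h3 := Cell.unique R h1 h2
    have h4 := cs.length_simple i
    rw [← h3, cs.length_one] at h4
    exact absurd h4 (by norm_num)
  obtain ⟨c, hc⟩ : ∃ c, c = chD hφ hK i t := ⟨_, rfl⟩
  have hc0 : c ≠ 0 := by rw [hc]; exact ch_ne_zero hK hφ ht i
  have hb' := hb
  rw [lo_form ha, lo_form hb0, map_mul, map_mul, map_mul, map_mul] at hb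
  have h1 : PhiD hφ hK i (up (c * a⁻¹)) * (t * PhiD hφ hK i (wS (-a⁻¹)) * t⁻¹) * PhiD hφ hK i (up (c * a⁻¹)) =
      PhiD hφ hK i (up b⁻¹) * PhiD hφ hK i (wS (-b⁻¹)) * PhiD hφ hK i (up b⁻¹) := by
    rw [← hb, hc, ← act_up hK hφ ht i]
    group
  have hrt : Rp cs R.nsys (cs.simple i) (t * PhiD hφ hK i (wS (-a⁻¹)) * t⁻¹) := by
    have := ((rp_of_mem (cs := cs) (hN := R.nsys) ht).mul (hwT (-a⁻¹) (neg_ne_zero.2 (inv_ne_zero ha)))).mul
      (rp_of_mem (cs := cs) (hN := R.nsys) (inv_mem ht))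
    rwa [one_mul, mul_one] at this
  have hU : ∀ a, PhiD hφ hK i (up a) ∈ RGD.Sup (X φ q) (RGD.Pos cs isCartan) := fun a =>
    RGD.le_Sup (S := RGD.Pos cs isCartan) ⟨isRoot_sr cs isCartan i, sr_nonneg i⟩ (hup a)
  have hN : ∀ a, PhiD hφ hK i (up a) ∈ RGD.Sup (X φ q) (NW cs isCartan (cs.simple i)) := fun a =>
    RGD.le_Sup (sr_mem_NW R i) (hup a)
  obtain ⟨h2, -, -⟩ := normal_form_unique R (hU _) (hU _) hrt (hwT (-b⁻¹) (neg_ne_zero.2 (inv_ne_zero hb0))) (hN _) (hN _) h1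
  have h3 := (coordD hφ hK i).inj h2
  rw [hb', ← hc]
  congr 2
  rw [← inv_inv b, ← h3]
  field_simp

include hK in
/-- conjugation of the torus by the reflections -/
theorem n_conj_T {t : ↥(twistedD4 K q)} (ht : t ∈ T K q) (i : Fin 2) :
    (n hφ i)⁻¹ * t * n hφ i = (PhiD hφ hK i (hS (chD hφ hK i t)))⁻¹ * t := by
  obtain ⟨c, hc⟩ : ∃ c, c = chD hφ hK i t := ⟨_, rfl⟩
  have hc0 : c ≠ 0 := by rw [hc]; exact ch_ne_zero hK hφ ht i
  have h1 : t * n hφ i * t⁻¹ = PhiD hφ hK i (wS c) := by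
    have e1 := act_up hK hφ ht i 1
    have e2 := act_lo hK hφ ht i (-1⁻¹)
    rw [mul_one, ← hc] at e1
    rw [← hc] at e2
    have e3 : c⁻¹ * -(1 : KD φ i)⁻¹ = -c⁻¹ := by rw [inv_one, mul_neg, mul_one]
    rw [e3] at e2
    unfold wS
    rw [map_mul, map_mul, ← e1, ← e2, ← PhiD_wS hφ hK i]
    show t * PhiD hφ hK i (up 1 * (lo (-(1 : KD φ i)⁻¹) * up 1)) * t⁻¹ = _
    rw [map_mul, map_mul]
    group
  rw [wS_eq hc0, map_mul, PhiD_wS] at h1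
  have h2 := congrArg (PhiD hφ hK i) (wS_conj hc0)
  rw [map_mul, map_mul, map_inv, map_inv, PhiD_wS] at h2
  rw [← hc, ← h2]
  have h3 : t * n hφ i = PhiD hφ hK i (hS c) * n hφ i * t := mul_inv_eq_iff_eq_mul.1 h1
  rw [mul_assoc, h3]
  simp only [mul_assoc]

include hK in
theorem ch_inv {t : ↥(twistedD4 K q)} (ht : t ∈ T K q) (i : Fin 2) : chD hφ hK i t⁻¹ = (chD hφ hK i t)⁻¹ := by
  refine eq_inv_of_mul_eq_one_left ?_
  rw [← ch_mul hK hφ (inv_mem ht) ht, inv_mul_cancel, ch_one hK hφ]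

include hK in
theorem ch10 (e : KD φ 1) (he : e ≠ 0) (hf : φ (e : K) = e) :
    (chD hφ hK 0 (PhiD hφ hK 1 (hS e)) : K) = ((e : K) ^ 3)⁻¹ := by
  have he' : (e : K) ≠ 0 := fun h => he (Subtype.ext h)
  apply chD_eq hφ hK 0 (PhiD_hS hφ hK 1 e he)
  have h1 : ((PhiD hφ hK 1 (hS e) : ↥(twistedD4 K q)) : GL chevD4.Idx K) =
      Elts.hG Nodes.RGDTwD4.hp.inList 18 (e : K) * (Elts.hG Nodes.RGDTwD4.hp.inList 13 (e : K) *
        (Elts.hG Nodes.RGDTwD4.hp.inList 12 (e : K) * 1)) :=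
    Cfsg.Agent.ParSys.Fam.D4.coe_hS1 hφ (D4Fixed.twisted_le_fix hK hφ) e hf
  rw [h1]
  have h2 := (Cfsg.Agent.ParSys.Fam.D4.sc18 (K := K) he').1 1
  have e3 : (e : K)⁻¹ * ((e : K)⁻¹ * ((e : K)⁻¹ * 1)) * 1 = ((e : K) ^ 3)⁻¹ := by
    rw [pow_succ, pow_two, mul_inv, mul_inv]; ring
  rw [e3] at h2
  exact h2

/-- the characters are cube roots of unity in `F_q` -/
structure Good3 (t : ↥(twistedD4 K q)) : Prop where
  mem : t ∈ T K q
  h0 : chD hφ hK 0 t ^ 3 = 1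
  ne : chD hφ hK 0 t ≠ 1
  h1 : (chD hφ hK 1 t : K) ^ 3 = 1
  fx : φ (chD hφ hK 1 t : K) = chD hφ hK 1 t

variable {hK hφ}

theorem good_n0 {t : ↥(twistedD4 K q)} (ht : Good3 hK hφ t) : Good3 hK hφ ((n hφ 0)⁻¹ * t * n hφ 0) ∧
    chD hφ hK 0 ((n hφ 0)⁻¹ * t * n hφ 0) = (chD hφ hK 0 t)⁻¹ ∧
      (chD hφ hK 1 ((n hφ 0)⁻¹ * t * n hφ 0) : K) = (chD hφ hK 0 t : K) * (chD hφ hK 1 t : K) := by
  have hc0 := ch_ne_zero hK hφ ht.mem 0
  have hP := PhiD_hS hφ hK 0 _ hc0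
  have hc0' : (chD hφ hK 0 t : K) ≠ 0 := fun h => hc0 (Subtype.ext h)
  have e0 : chD hφ hK 0 ((n hφ 0)⁻¹ * t * n hφ 0) = (chD hφ hK 0 t)⁻¹ := by
    rw [n_conj_T hK hφ ht.mem, ch_mul hK hφ (inv_mem hP) ht.mem, ch_inv hK hφ hP, chD_hS hφ hK 0 _ hc0]
    field_simp
  have e1 : (chD hφ hK 1 ((n hφ 0)⁻¹ * t * n hφ 0) : K) = (chD hφ hK 0 t : K) * (chD hφ hK 1 t : K) := by
    rw [n_conj_T hK hφ ht.mem, ch_mul hK hφ (inv_mem hP) ht.mem, ch_inv hK hφ hP]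
    show (chD hφ hK 1 (PhiD hφ hK 0 (hS (chD hφ hK 0 t))) : K)⁻¹ * (chD hφ hK 1 t : K) = _
    rw [ch01 hφ hK _ hc0, inv_inv]
  have h0K : (chD hφ hK 0 t : K) ^ 3 = 1 := congrArg (fun a : KD φ 0 => (a : K)) ht.h0
  refine ⟨⟨?_, ?_, ?_, ?_, ?_⟩, e0, e1⟩
  · rw [n_conj_T hK hφ ht.mem]
    exact mul_mem (inv_mem hP) ht.mem
  · rw [e0, inv_pow, ht.h0, inv_one]
  · rw [e0]
    intro h
    exact ht.ne (inv_eq_one.1 h)
  · rw [e1, mul_pow, h0K, ht.h1, one_mul]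
  · rw [e1, map_mul, ht.fx]
    congr 1
    exact mem_Fx.1 (chD hφ hK 0 t).2

theorem good_n1 {t : ↥(twistedD4 K q)} (ht : Good3 hK hφ t) : Good3 hK hφ ((n hφ 1)⁻¹ * t * n hφ 1) ∧
    chD hφ hK 0 ((n hφ 1)⁻¹ * t * n hφ 1) = chD hφ hK 0 t ∧
      chD hφ hK 1 ((n hφ 1)⁻¹ * t * n hφ 1) = (chD hφ hK 1 t)⁻¹ := by
  have hc1 := ch_ne_zero hK hφ ht.mem 1
  have hP := PhiD_hS hφ hK 1 _ hc1
  have e0 : chD hφ hK 0 ((n hφ 1)⁻¹ * t * n hφ 1) = chD hφ hK 0 t := by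
    rw [n_conj_T hK hφ ht.mem, ch_mul hK hφ (inv_mem hP) ht.mem, ch_inv hK hφ hP]
    have h1 : chD hφ hK 0 (PhiD hφ hK 1 (hS (chD hφ hK 1 t))) = 1 := by
      apply Subtype.ext
      rw [ch10 hK hφ _ hc1 ht.fx, ht.h1, inv_one]
      rfl
    rw [h1, inv_one, one_mul]
  have e1 : chD hφ hK 1 ((n hφ 1)⁻¹ * t * n hφ 1) = (chD hφ hK 1 t)⁻¹ := by
    rw [n_conj_T hK hφ ht.mem, ch_mul hK hφ (inv_mem hP) ht.mem, ch_inv hK hφ hP, chD_hS hφ hK 1 _ hc1]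
    field_simp
  have e1' : (chD hφ hK 1 ((n hφ 1)⁻¹ * t * n hφ 1) : K) = (chD hφ hK 1 t : K)⁻¹ := by rw [e1]; rfl
  refine ⟨⟨?_, ?_, ?_, ?_, ?_⟩, e0, e1⟩
  · rw [n_conj_T hK hφ ht.mem]
    exact mul_mem (inv_mem hP) ht.mem
  · rw [e0, ht.h0]
  · rw [e0]
    exact ht.ne
  · rw [e1', inv_pow, ht.h1, inv_one]
  · rw [e1', map_inv₀, ht.fx]

/-! ### the automorphisms `conj t * st q τ` -/

section beta

variable {τ : K ≃+* K}

theorem beta_n (t y : ↥(twistedD4 K q)) (i : Fin 2) :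
    (MulAut.conj t * st q τ) (n hφ i * y * (n hφ i)⁻¹) =
      n hφ i * ((MulAut.conj ((n hφ i)⁻¹ * t * n hφ i) * st q τ) y) * (n hφ i)⁻¹ := by
  show t * st q τ (n hφ i * y * (n hφ i)⁻¹) * t⁻¹ =
    n hφ i * ((n hφ i)⁻¹ * t * n hφ i * st q τ y * ((n hφ i)⁻¹ * t * n hφ i)⁻¹) * (n hφ i)⁻¹
  rw [map_mul, map_mul, map_inv, st_n]
  group

variable (hK hφ) in
/-- no fixed points on the root group of `z` -/
def NoFix (τ : K ≃+* K) (z : Fin 2 → ℤ) : Prop :=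
  ∀ t, Good3 hK hφ t → ∀ y ∈ X φ q z, (MulAut.conj t * st q τ) y = y → y = 1

variable (hK hφ) in
/-- fixed points on the root group of `z` -/
def HasFix (τ : K ≃+* K) (z : Fin 2 → ℤ) : Prop :=
  ∀ t, Good3 hK hφ t → ∃ y ∈ X φ q z, (MulAut.conj t * st q τ) y = y ∧ y ≠ 1

theorem good_n {t : ↥(twistedD4 K q)} (ht : Good3 hK hφ t) (i : Fin 2) :
    Good3 hK hφ ((n hφ i)⁻¹ * t * n hφ i) := by
  fin_cases i
  · exact (good_n0 ht).1
  · exact (good_n1 ht).1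

theorem n_conj' (hK : Fintype.card K = q ^ 3) (i : Fin 2) {x : Fin 2 → ℤ} (hx : x ∈ rts) {a : ↥(twistedD4 K q)}
    (ha : a ∈ X φ q (rep cs isCartan (cs.simple i) x)) : (n hφ i)⁻¹ * a * n hφ i ∈ X φ q x := by
  obtain ⟨r, hr⟩ := CharP.exists K
  have : Fact r.Prime := ⟨CharP.char_is_prime K r⟩
  rw [← (rgd' hK hφ r).conj i x (isRoot_of_mem hx)] at ha
  exact mem_cj.1 ha

theorem NoFix.step {z : Fin 2 → ℤ} (h : NoFix hK hφ τ z) (hz : z ∈ rts) (i : Fin 2) :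
    NoFix hK hφ τ (rep cs isCartan (cs.simple i) z) := by
  intro t ht y hy hf
  have h1 := n_conj' (hφ := hφ) hK i hz hy
  have h2 := h _ (good_n ht i) _ h1 (by
    have h3 := beta_n (hφ := hφ) (τ := τ) t ((n hφ i)⁻¹ * y * n hφ i) i
    have e : n hφ i * ((n hφ i)⁻¹ * y * n hφ i) * (n hφ i)⁻¹ = y := by group
    rw [e, hf] at h3
    have h4 : (MulAut.conj ((n hφ i)⁻¹ * t * n hφ i) * st q τ) ((n hφ i)⁻¹ * y * n hφ i) =
      (n hφ i)⁻¹ * y * n hφ i := by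
      conv_rhs => rw [h3]
      group
    exact h4)
  have e : y = n hφ i * ((n hφ i)⁻¹ * y * n hφ i) * (n hφ i)⁻¹ := by group
  rw [e, h2]; group

theorem HasFix.step {z : Fin 2 → ℤ} (h : HasFix hK hφ τ z) (hz : z ∈ rts) (i : Fin 2) :
    HasFix hK hφ τ (rep cs isCartan (cs.simple i) z) := by
  intro t ht
  obtain ⟨y, hy, hf, hy1⟩ := h _ (good_n ht i)
  refine ⟨n hφ i * y * (n hφ i)⁻¹, n_conj hK hφ i hz hy, ?_, ?_⟩
  · rw [beta_n, hf]
  · intro h1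
    apply hy1
    have e : y = (n hφ i)⁻¹ * (n hφ i * y * (n hφ i)⁻¹) * n hφ i := by group
    rw [e, h1]; group

theorem beta_up {t : ↥(twistedD4 K q)} (ht : t ∈ T K q) (i : Fin 2) (a : KD φ i) :
    (MulAut.conj t * st q τ) (PhiD hφ hK i (up a)) = PhiD hφ hK i (up (chD hφ hK i t * rs hφ τ i a)) := by
  rw [MulAut.mul_apply, MulAut.conj_apply, st_up, act_up hK hφ ht]

theorem beta_lo {t : ↥(twistedD4 K q)} (ht : t ∈ T K q) (i : Fin 2) (a : KD φ i) :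
    (MulAut.conj t * st q τ) (PhiD hφ hK i (lo a)) = PhiD hφ hK i (lo ((chD hφ hK i t)⁻¹ * rs hφ τ i a)) := by
  rw [MulAut.mul_apply, MulAut.conj_apply, st_lo hK hφ, act_lo hK hφ ht]

include hK hφ in
/-- the fixed field of an automorphism of order three -/
theorem phi_fix (hq : IsPrimePow q) (hτ : τ ^ 3 = 1) (hτ1 : τ ≠ 1) {a : K} (ha : τ a = a) : φ a = a := by
  obtain ⟨r, hr⟩ := CharP.exists K
  have : Fact r.Prime := ⟨CharP.char_is_prime K r⟩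
  obtain ⟨n, hn0, hn⟩ := H27.Exc.exists_pow (r := r) three_pos hq hK
  obtain ⟨j, hj⟩ := exists_pow_eq r τ
  have hcard : Nat.card K = r ^ (n * 3) := by rw [Nat.card_eq_fintype_card, hK, hn, pow_mul]
  have h1 : ∀ b : K, b ^ r ^ (j * 3) = b := by
    intro b
    have h2 := Cfsg.Agent.BpExc.FamField.pow_apply_of hj 3 b
    rw [hτ] at h2
    exact h2.symm
  have h2 : n ∣ j := by
    have h3 := (forall_pow_iff (F := K) r hcard (j * 3)).1 h1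
    exact Nat.dvd_of_mul_dvd_mul_right three_pos h3
  obtain ⟨m, rfl⟩ := h2
  have hτm : ∀ b, τ b = b ^ q ^ m := by
    intro b
    rw [hj, hn, ← pow_mul]
  have hk : ∀ (m' : ℕ) (b : K), b ^ (q ^ 3) ^ m' = b := by
    intro m' b
    rw [← hK]
    exact FiniteField.pow_card_pow m' b
  have hm : m % 3 = 0 ∨ m % 3 = 1 ∨ m % 3 = 2 := by omega
  have hdm := Nat.div_add_mod m 3
  rcases hm with h | h | h
  · exfalso
    apply hτ1
    ext b
    rw [h] at hdm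
    rw [hτm, ← hdm, add_zero, pow_mul, hk]
    rfl
  · rw [h] at hdm
    have h3 := hτm a
    rw [ha, ← hdm, pow_add, pow_mul q, pow_one, pow_mul, hk] at h3
    rw [hφ]
    exact h3.symm
  · rw [h] at hdm
    have h3 := hτm a
    rw [ha, ← hdm, pow_add, pow_mul q, pow_mul, hk] at h3
    have h4 : φ (φ a) = a := by
      rw [hφ, hφ, ← pow_mul, ← pow_two]
      exact h3.symm
    conv_lhs => rw [← h4]
    exact phi_three hφ hK a

theorem noFix_sr0 (hq : IsPrimePow q) (hτ : τ ^ 3 = 1) : NoFix hK hφ τ ![1, 0] := by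
  intro t ht y hy hf
  rw [← sr0_eq] at hy
  obtain ⟨a, rfl⟩ := (mem_X hφ hK 0 y).1 hy
  rw [beta_up ht.mem, rs_zero hK hφ hq hτ] at hf
  have h1 := (coordD hφ hK 0).inj hf
  by_cases ha : a = 0
  · rw [ha]
    exact (coordD hφ hK 0).zero
  · exact absurd (mul_right_cancel₀ ha (h1.trans (one_mul a).symm)) ht.ne

theorem hasFix_sr1 (hq : IsPrimePow q) (hτ : τ ^ 3 = 1) (hτ1 : τ ≠ 1) : HasFix hK hφ τ ![0, 1] := by
  intro t ht
  obtain ⟨c, hc⟩ : ∃ c, c = chD hφ hK 1 t := ⟨_, rfl⟩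
  have hfix : ∀ a : K, φ a = a → τ a = a := fun a ha => tau_fix hK hφ hq hτ ha
  obtain ⟨u, hu, hu'⟩ := hilbert (σ := τ) (fun a => by
      have : (τ ^ 3) a = a := by rw [hτ]; rfl
      exact this) (by
      by_contra hcon
      push Not at hcon
      exact hτ1 (RingEquiv.ext hcon)) (c := (c : K)) (by
      rw [hfix _ (by rw [hc]; exact ht.fx), hfix _ (by rw [hc]; exact ht.fx)]
      have := ht.h1
      rw [← hc] at this
      linear_combination this)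
  refine ⟨PhiD hφ hK 1 (up ⟨u, mem_KD1 hK hφ u⟩), ?_, ?_, ?_⟩
  · rw [← sr1_eq]
    exact (mem_X hφ hK 1 _).2 ⟨_, rfl⟩
  · rw [beta_up ht.mem, ← hc]
    congr 2
    exact Subtype.ext hu'
  · exact (coordD hφ hK 1).ne_one (fun h => hu (congrArg Subtype.val h))

theorem noFix_long (hq : IsPrimePow q) (hτ : τ ^ 3 = 1) {z : Fin 2 → ℤ}
    (hz : z ∈ [(![1, 0] : Fin 2 → ℤ), ![1, 3], ![2, 3], ![-1, 0], ![-1, -3], ![-2, -3]]) : NoFix hK hφ τ z := by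
  have h1 := noFix_sr0 (hK := hK) (hφ := hφ) hq hτ
  have h2 := h1.step (by decide) 1
  rw [rep1] at h2
  have h3 := h2.step (by decide) 0
  rw [rep0] at h3
  have h4 := h1.step (by decide) 0
  rw [rep0] at h4
  have h5 := h4.step (by decide) 1
  rw [rep1] at h5
  have h6 := h5.step (by decide) 0
  rw [rep0] at h6
  norm_num at h2 h3 h4 h5 h6
  simp only [List.mem_cons, List.not_mem_nil, or_false] at hz
  rcases hz with rfl | rfl | rfl | rfl | rfl | rfl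
  · exact h1
  · exact h2
  · exact h3
  · exact h4
  · exact h5
  · exact h6

theorem hasFix_short (hq : IsPrimePow q) (hτ : τ ^ 3 = 1) (hτ1 : τ ≠ 1) {z : Fin 2 → ℤ}
    (hz : z ∈ [(![0, 1] : Fin 2 → ℤ), ![1, 1], ![1, 2], ![0, -1], ![-1, -1], ![-1, -2]]) : HasFix hK hφ τ z := by
  have h1 := hasFix_sr1 (hK := hK) (hφ := hφ) hq hτ hτ1
  have h2 := h1.step (by decide) 0
  rw [rep0] at h2
  have h3 := h2.step (by decide) 1
  rw [rep1] at h3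
  have h4 := h1.step (by decide) 1
  rw [rep1] at h4
  have h5 := h4.step (by decide) 0
  rw [rep0] at h5
  have h6 := h5.step (by decide) 1
  rw [rep1] at h6
  norm_num at h2 h3 h4 h5 h6
  simp only [List.mem_cons, List.not_mem_nil, or_false] at hz
  rcases hz with rfl | rfl | rfl | rfl | rfl | rfl
  · exact h1
  · exact h2
  · exact h3
  · exact h4
  · exact h5
  · exact h6

end beta

end Cfsg.Agent.H202.TD
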